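import Cfsg.Agent.H125.Hall.CoreRow
import Cfsg.Agent.H408.Hall.MTwo
import Cfsg.Agent.ChevalleyStructure.E6Min.Torus

/-!
# S2223, the row `E₆(q)`, `q ≡ 1 mod 4` (helper38)

`DU x c` is the torus element with eigenvalue `c ^ (3 (λ_x, λ_y))` on the basis vector with index `y`: exponents
4 at `x`, and 1 or -2 elsewhere.  For `i` with `i² = -1` the element `DU x i` satisfies `(X - i) (X + 1)` up to
rank 1, therefore `DU x (-1)` lies in the 2-core of every subgroup of order prime to `p` containing `DU x i`.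
-/

set_option autoImplicit false

namespace Cfsg.Agent.H38.Hall.E6One

open Cfsg.Lie Cfsg.Agent.ChevalleyStructure.E6Min.Tables Cfsg.Agent.ChevalleyStructure.E6Min.Basic
  Cfsg.Agent.ChevalleyStructure.E6Min.Torus Cfsg.Agent.H125.Hall
open scoped Matrix

/-- coefficients of `3 λ_x` in terms of simple roots -/
def cfL : List (List ℤ) := [[2, 0, 1, 0, -1, -2], [2, 0, 1, 0, -1, 1], [2, 0, 1, 0, 2, 1], [-1, 0, 1, 0, -1, -2],
  [-1, 0, 1, 0, -1, 1], [-1, 0, 1, 0, 2, 1], [-1, 0, -2, 0, -1, -2], [-1, 0, -2, 0, -1, 1], [-1, 0, -2, 0, 2, 1],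
  [2, 3, 4, 6, 5, 4], [-1, -3, -2, -3, -1, 1], [-1, 0, -2, -3, -1, 1], [2, 3, 4, 6, 5, 1],
  [-1, -3, -2, -3, -1, -2], [-1, 0, -2, -3, -1, -2], [2, 3, 4, 6, 2, 1], [-1, -3, -2, -3, -4, -2],
  [-1, 0, -2, -3, -4, -2], [-4, -3, -5, -6, -4, -2], [-1, -3, -5, -6, -4, -2], [-1, -3, -2, -6, -4, -2],
  [-1, 3, 1, 3, 2, 1], [2, 3, 1, 3, 2, 1], [2, 3, 4, 3, 2, 1], [-1, 0, 1, 3, 2, 1], [2, 0, 1, 3, 2, 1],
  [2, 0, 4, 3, 2, 1]]

def cfN (x i : ℕ) : ℤ := (cfL.getD x []).getD i 0

/-- `3 (λ_x, λ_y)` -/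
def exN (x y : ℕ) : ℤ := cfN x 0 * lbN y 0 + (cfN x 1 * lbN y 1 + (cfN x 2 * lbN y 2 + (cfN x 3 * lbN y 3 +
  (cfN x 4 * lbN y 4 + cfN x 5 * lbN y 5))))

theorem ex_all : allLt 27 (fun x => allLt 27 fun y => ((relN x y == 0) && (x == y) && (exN x y == 4)) ||
    ((relN x y == 1) && (exN x y == 1)) || ((relN x y == 2) && (exN x y == -2))) = true := by
  decide +kernel

theorem sep_all : allLt 27 (fun u => allLt 27 fun v => (u == v) ||
    !(allLt 27 fun x => (relN x u == 1) == (relN x v == 1))) = true := by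
  decide +kernel

theorem allLt_false {n : ℕ} {p : ℕ → Bool} (h : allLt n p = false) : ∃ k, k < n ∧ p k = false := by
  induction n with
  | zero => exact absurd h (by simp [allLt])
  | succ n ih =>
    have h' : (p n && allLt n p) = false := h
    rw [Bool.and_eq_false_iff] at h'
    rcases h' with h1 | h1
    · exact ⟨n, Nat.lt_succ_self n, h1⟩
    · obtain ⟨k, hk, hk2⟩ := ih h1
      exact ⟨k, hk.trans (Nat.lt_succ_self n), hk2⟩

theorem ex_self {x y : ℕ} (hx : x < 27) (hy : y < 27) :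
    (relN x y = 0 ∧ x = y ∧ exN x y = 4) ∨ (relN x y = 1 ∧ exN x y = 1) ∨ (relN x y = 2 ∧ exN x y = -2) := by
  have := allLt_spec (allLt_spec ex_all x hx) y hy
  simp only [Bool.or_eq_true, Bool.and_eq_true, beq_iff_eq] at this
  tauto

theorem rel_self_all : allLt 27 (fun x => relN x x == 0) = true := by decide +kernel

theorem rel_self {x : ℕ} (hx : x < 27) : relN x x = 0 := by
  have := allLt_spec rel_self_all x hx
  rwa [beq_iff_eq] at this

theorem sep {u v : ℕ} (hu : u < 27) (hv : v < 27) (huv : u ≠ v) :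
    ∃ x, x < 27 ∧ ¬ (relN x u = 1 ↔ relN x v = 1) := by
  have := allLt_spec (allLt_spec sep_all u hu) v hv
  rw [Bool.or_eq_true, beq_iff_eq, Bool.not_eq_true'] at this
  obtain ⟨x, hx, h⟩ := allLt_false (this.resolve_left huv)
  refine ⟨x, hx, fun hh => ?_⟩
  rw [beq_eq_false_iff_ne] at h
  apply h
  by_cases h1 : relN x u = 1
  · rw [h1, hh.1 h1]
  · rw [beq_eq_false_iff_ne.2 h1, beq_eq_false_iff_ne.2 fun h2 => h1 (hh.2 h2)]

section

variable {F : Type*} [Field F]

/-- the torus element of `3 λ_x` -/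
def DU (x : ℕ) (c : F) : GL I27 F := hU 0 (c ^ cfN x 0) * (hU 1 (c ^ cfN x 1) * (hU 2 (c ^ cfN x 2) *
  (hU 3 (c ^ cfN x 3) * (hU 4 (c ^ cfN x 4) * hU 5 (c ^ cfN x 5)))))

theorem DU_mem (x : ℕ) (c : F) : DU x c ∈ Zgrp F :=
  mul_mem (hU_mem _ _) (mul_mem (hU_mem _ _) (mul_mem (hU_mem _ _) (mul_mem (hU_mem _ _)
    (mul_mem (hU_mem _ _) (hU_mem _ _)))))

theorem coe_DU (x : ℕ) {c : F} (hc : c ≠ 0) :
    ((DU x c : GL I27 F) : Matrix I27 I27 F) = Matrix.diagonal fun y => c ^ exN x (code y) := by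
  unfold DU
  simp only [Units.val_mul]
  rw [coe_hU (by norm_num) (zpow_ne_zero _ hc), coe_hU (by norm_num) (zpow_ne_zero _ hc),
    coe_hU (by norm_num) (zpow_ne_zero _ hc), coe_hU (by norm_num) (zpow_ne_zero _ hc),
    coe_hU (by norm_num) (zpow_ne_zero _ hc), coe_hU (by norm_num) (zpow_ne_zero _ hc)]
  simp only [Matrix.diagonal_mul_diagonal, ← zpow_mul, ← zpow_add₀ hc]
  rfl

theorem DU_pow (x : ℕ) {c : F} (hc : c ≠ 0) (n : ℕ) : DU x c ^ n = DU x (c ^ n) := by
  apply Units.ext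
  rw [Units.val_pow_eq_pow_val, coe_DU x hc, coe_DU x (pow_ne_zero n hc), Matrix.diagonal_pow]
  congr 1
  ext y
  rw [Pi.pow_apply, ← zpow_natCast, ← zpow_natCast, zpow_comm]

/-- the diagonal elements of order dividing 4 -/
def Tg (F : Type*) [Field F] : Subgroup ↥(Zgrp F) where
  carrier := {g | (∃ d : I27 → F, (((g : GL I27 F)) : Matrix I27 I27 F) = Matrix.diagonal d) ∧ g ^ 4 = 1}
  one_mem' := ⟨⟨fun _ => 1, by rw [OneMemClass.coe_one, Units.val_one, Matrix.diagonal_one]⟩, one_pow 4⟩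
  mul_mem' := by
    rintro a b ⟨⟨d, hd⟩, ha⟩ ⟨⟨d', hd'⟩, hb⟩
    refine ⟨⟨fun y => d y * d' y, ?_⟩, ?_⟩
    · rw [Subgroup.coe_mul, Units.val_mul, hd, hd', Matrix.diagonal_mul_diagonal]
    · have h : Commute a b := by
        apply Subtype.ext
        apply Units.ext
        rw [Subgroup.coe_mul, Subgroup.coe_mul, Units.val_mul, Units.val_mul, hd, hd', Matrix.diagonal_mul_diagonal,
          Matrix.diagonal_mul_diagonal]
        congr 1
        ext y
        exact mul_comm _ _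
      rw [h.mul_pow, ha, hb, one_mul]
  inv_mem' := by
    rintro a ⟨⟨d, hd⟩, ha⟩
    have h1 : a⁻¹ = a ^ 3 := by
      rw [inv_eq_iff_mul_eq_one, ← pow_succ', ha]
    rw [h1]
    refine ⟨⟨d ^ 3, ?_⟩, ?_⟩
    · rw [SubmonoidClass.coe_pow, Units.val_pow_eq_pow_val, hd, Matrix.diagonal_pow]
    · rw [← pow_mul, mul_comm 3 4, pow_mul, ha, one_pow]

theorem Tg_isPGroup : IsPGroup 2 (Tg F) := by
  rintro ⟨g, hg⟩
  exact ⟨2, Subtype.ext hg.2⟩

/-- the natural representation of a subgroup of `Zgrp F` -/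
noncomputable def rep (H : Subgroup ↥(Zgrp F)) : Representation F ↥H (I27 → F) :=
  (Matrix.toLinAlgEquiv' (R := F) (n := I27) : Matrix I27 I27 F →* ((I27 → F) →ₗ[F] (I27 → F))).comp
    ((Units.coeHom (Matrix I27 I27 F)).comp ((Zgrp F).subtype.comp H.subtype))

theorem rep_apply (H : Subgroup ↥(Zgrp F)) (x : ↥H) :
    rep H x = (((x : ↥(Zgrp F)) : GL I27 F) : Matrix I27 I27 F).mulVecLin := rfl

theorem neg_one_ex {x : ℕ} (hx : x < 27) (y : I27) :
    ((-1 : F)) ^ exN x (code y) = if relN x (code y) = 1 then -1 else 1 := by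
  rcases ex_self hx (code_lt y) with ⟨h1, -, h2⟩ | ⟨h1, h2⟩ | ⟨h1, h2⟩
  · rw [h1, h2, if_neg (by norm_num)]; norm_num
  · rw [h1, h2, if_pos rfl]; norm_num
  · rw [h1, h2, if_neg (by norm_num)]; norm_num

theorem diag_of_comm (h2 : (2 : F) ≠ 0) {M : Matrix I27 I27 F}
    (h : ∀ x, x < 27 → M * ((DU x (-1) : GL I27 F) : Matrix I27 I27 F) = ((DU x (-1) : GL I27 F) : Matrix I27 I27 F) * M) :
    M = Matrix.diagonal fun u => M u u := by
  ext u v
  rw [Matrix.diagonal_apply]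
  split_ifs with huv
  · rw [huv]
  · obtain ⟨x, hx, hs⟩ := sep (code_lt u) (code_lt v) (fun h => huv (code_injective h))
    have h3 := congrFun (congrFun (h x hx) u) v
    rw [coe_DU x (neg_ne_zero.2 one_ne_zero), Matrix.mul_diagonal, Matrix.diagonal_mul, neg_one_ex hx, neg_one_ex hx] at h3
    have h4 : (2 : F) * M u v = 0 := by
      by_cases hu : relN x (code u) = 1
      · have hv : relN x (code v) ≠ 1 := fun hv => hs ⟨fun _ => hv, fun _ => hu⟩
        rw [if_pos hu, if_neg hv] at h3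
        linear_combination h3
      · have hv : relN x (code v) = 1 := by
          by_contra hv
          exact hs ⟨fun h => absurd h hu, fun h => absurd h hv⟩
        rw [if_neg hu, if_pos hv] at h3
        linear_combination -h3
    exact (mul_eq_zero.1 h4).resolve_left h2

/-- EC1 as a hypothesis -/
def EC1 (F : Type*) [Field F] : Prop :=
  ∀ z : GL I27 F, z ∈ Zgrp F → ∀ m : ℕ, (m : F) ≠ 0 → z ^ m = 1 →
    Module.finrank F (LinearMap.range (((z : Matrix I27 I27 F) - 1).mulVecLin)) ≤ 4 → z = 1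

open Polynomial in
theorem coreRow_of [Finite F] (hec : EC1 F) {p : ℕ} [Fact p.Prime] [CharP F p] (h2 : (2 : F) ≠ 0) {i : F}
    (hi : i ^ 2 = -1) : CoreRow p (Zgrp F) := by
  have hi0 : i ≠ 0 := by
    rintro rfl
    rw [zero_pow two_ne_zero, zero_eq_neg] at hi
    exact one_ne_zero hi
  have hi4 : i ^ 4 = 1 := by
    rw [show 4 = 2 * 2 from rfl, pow_mul, hi]; norm_num
  have : Finite (GL I27 F) := inferInstance
  refine ⟨Tg F, Tg_isPGroup, ?_⟩
  intro H hTH hp g hg c hc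
  have hm : ∀ x : ℕ, ∀ a : F, a ≠ 0 → a ^ 4 = 1 → (⟨DU x a, DU_mem x a⟩ : ↥(Zgrp F)) ∈ Tg F := by
    intro x a ha ha4
    refine ⟨⟨_, coe_DU x ha⟩, ?_⟩
    apply Subtype.ext
    rw [SubmonoidClass.coe_pow, DU_pow x ha, ha4]
    apply Units.ext
    rw [coe_DU x one_ne_zero]
    simp only [one_zpow]
    exact Matrix.diagonal_one
  have hm1 : ∀ x : ℕ, (⟨DU x (-1), DU_mem x (-1)⟩ : ↥(Zgrp F)) ∈ Tg F := fun x =>
    hm x _ (neg_ne_zero.2 one_ne_zero) (by norm_num)
  -- `DU x (-1)` lies in the 2-core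
  have hcore : ∀ x, (hx : x < 27) →
      (⟨⟨DU x (-1), DU_mem x (-1)⟩, hTH (hm1 x)⟩ : ↥H) ∈ Cfsg.pCore 2 ↥H := by
    intro x hx
    set y : ↥H := ⟨⟨DU x i, DU_mem x i⟩, hTH (hm x i hi0 hi4)⟩ with hy
    have hy2 : y ^ 2 ^ 1 = (⟨⟨DU x (-1), DU_mem x (-1)⟩, hTH (hm1 x)⟩ : ↥H) := by
      apply Subtype.ext
      apply Subtype.ext
      rw [SubmonoidClass.coe_pow, SubmonoidClass.coe_pow, pow_one, hy]
      show DU x i ^ 2 = DU x (-1)
      rw [DU_pow x hi0, hi]
    rw [← hy2]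
    have hg0 : ((X - C i) * (X + C 1) : F[X]) ≠ 0 :=
      mul_ne_zero (X_sub_C_ne_zero i) (X_add_C_ne_zero 1)
    refine Cfsg.Agent.H408.Hall.MTwo.mem_pCore_of_rank (p := p) hp (rep H) hg0 (j := 1) (r := 1) ?_ ?_ ?_ ?_
    · refine (natDegree_mul_le).trans ?_
      rw [natDegree_X_sub_C, natDegree_X_add_C]
      norm_num
    · have h5 : ∀ w : I27 → F, rep H y w = fun v => i ^ exN x (code v) * w v := by
        intro w
        rw [rep_apply, Matrix.mulVecLin_apply]
        show ((DU x i : GL I27 F) : Matrix I27 I27 F) *ᵥ w = _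
        rw [coe_DU x hi0]
        ext v
        rw [Matrix.mulVec_diagonal]
      refine (Submodule.finrank_mono (t := Submodule.span F {(Pi.single (dec x) (1 : F) : I27 → F)}) ?_).trans
        ((finrank_span_le_card _).trans (by simp))
      rintro _ ⟨w, rfl⟩
      rw [Submodule.mem_span_singleton]
      refine ⟨(i ^ exN x x - i) * (i ^ exN x x + 1) * w (dec x), ?_⟩
      ext v
      rw [map_mul, map_sub, map_add, aeval_X, aeval_C, aeval_C, Module.End.mul_apply]
      simp only [LinearMap.sub_apply, LinearMap.add_apply, Module.algebraMap_end_apply, Pi.smul_apply, smul_eq_mul,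
        h5, Pi.sub_apply, Pi.add_apply, one_mul]
      rcases ex_self hx (code_lt v) with ⟨-, h6, -⟩ | ⟨h6, h7⟩ | ⟨h6, h7⟩
      · have h8 : v = dec x := by rw [h6, dec_code]
        rw [h8, Pi.single_eq_same, code_dec hx]
        ring
      · have h8 : v ≠ dec x := by
          rintro rfl
          rw [code_dec hx, rel_self hx] at h6
          exact absurd h6 (by norm_num)
        rw [Pi.single_eq_of_ne h8, h7, zpow_one]
        ring
      · have h8 : v ≠ dec x := by
          rintro rfl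
          rw [code_dec hx, rel_self hx] at h6
          exact absurd h6 (by norm_num)
        rw [Pi.single_eq_of_ne h8, h7]
        have h9 : i ^ (-2 : ℤ) = -1 := by
          rw [zpow_neg, show (2 : ℤ) = ((2 : ℕ) : ℤ) from rfl, zpow_natCast, hi]
          norm_num
        rw [h9]
        ring
    · rw [pow_succ, pow_mul, hy2]
      apply Subtype.ext
      apply Subtype.ext
      rw [SubmonoidClass.coe_pow, SubmonoidClass.coe_pow]
      show DU x (-1) ^ 2 = 1
      rw [DU_pow x (neg_ne_zero.2 one_ne_zero)]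
      apply Units.ext
      rw [neg_one_sq, coe_DU x one_ne_zero]
      simp only [one_zpow]
      exact Matrix.diagonal_one
    · intro z _ _ hr
      have h5 : orderOf z ∣ Nat.card ↥H := orderOf_dvd_natCard z
      have h6 : (orderOf z : F) ≠ 0 := fun h => hp (((CharP.cast_eq_zero_iff F p _).1 h).trans h5)
      have h7 := hec (((z : ↥(Zgrp F)) : GL I27 F)) (z : ↥(Zgrp F)).2 _ h6 (by
        rw [← SubmonoidClass.coe_pow, ← SubmonoidClass.coe_pow, pow_orderOf_eq_one]; rfl) ?_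
      · exact Subtype.ext (Subtype.ext h7)
      · have h8 : (((((z : ↥(Zgrp F)) : GL I27 F) : Matrix I27 I27 F)) - 1).mulVecLin = rep H z - 1 := by
          apply LinearMap.ext
          intro w
          rw [rep_apply, LinearMap.sub_apply, Matrix.mulVecLin_apply, Matrix.mulVecLin_apply, Matrix.sub_mulVec,
            Matrix.one_mulVec]
          rfl
        rw [h8]
        exact hr.trans (by norm_num)
  have key : ∀ b : ↥(Zgrp F), (∀ x, x < 27 → b * (⟨DU x (-1), DU_mem x (-1)⟩ : ↥(Zgrp F)) =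
      (⟨DU x (-1), DU_mem x (-1)⟩ : ↥(Zgrp F)) * b) →
      (((b : GL I27 F)) : Matrix I27 I27 F) = Matrix.diagonal fun u => ((b : GL I27 F) : Matrix I27 I27 F) u u := by
    intro b hb
    refine diag_of_comm h2 fun x hx => ?_
    have h3 := congrArg (fun w : ↥(Zgrp F) => ((w : GL I27 F) : Matrix I27 I27 F)) (hb x hx)
    simpa only [Subgroup.coe_mul, Units.val_mul] using h3
  have h3 := key g fun x _ => hg _ (hm1 x)
  have h4 := key c fun x hx => hc _ (hcore x hx)
  apply Subtype.ext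
  apply Units.ext
  rw [Subgroup.coe_mul, Subgroup.coe_mul, Units.val_mul, Units.val_mul, h3, h4, Matrix.diagonal_mul_diagonal,
    Matrix.diagonal_mul_diagonal]
  congr 1
  ext u
  exact mul_comm _ _

end

/-- EB from EC1 -/
theorem coreRow_e6_one_of {F : Type} [Field F] [Fintype F] {p : ℕ} [Fact p.Prime] [CharP F p] (hec : EC1 F)
    (h4 : Fintype.card F % 4 = 1) : CoreRow p (Zgrp F) := by
  have h2 : (2 : F) ≠ 0 := by
    intro h
    have h3 := (CharP.cast_eq_zero_iff F p 2).1 (by exact_mod_cast h)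
    rw [Nat.prime_dvd_prime_iff_eq Fact.out Nat.prime_two] at h3
    subst h3
    obtain ⟨n, -, hn⟩ := FiniteField.card F 2
    rw [hn] at h4
    obtain ⟨k, hk⟩ : ∃ k, (n : ℕ) = k + 1 := ⟨n - 1, by have := n.pos; omega⟩
    rw [hk, pow_succ] at h4
    omega
  obtain ⟨i, hi⟩ := (FiniteField.isSquare_neg_one_iff (F := F)).2 (by omega)
  exact coreRow_of hec h2 (i := i) (by rw [sq, ← hi])

end Cfsg.Agent.H38.Hall.E6One
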